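import Mathlib

/-!
# Involutions of groups with a cyclic subgroup of index 1 or 3 (S3010, row `²E₆`)
-/

set_option autoImplicit false

namespace Cfsg.Agent.H897.SK6

open Subgroup

/-- the involution of a cyclic group is unique -/
theorem eq_of_cyclic {C : Type*} [Group C] [Finite C] [IsCyclic C] {a b : C} (ha : a * a = 1) (ha1 : a ≠ 1)
    (hb : b * b = 1) (hb1 : b ≠ 1) : a = b := by
  classical
  have := Fintype.ofFinite C
  by_contra hab
  have h1 := IsCyclic.card_pow_eq_one_le (α := C) (n := 2) (by norm_num)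
  have h2 : ({1, a, b} : Finset C) ⊆ Finset.univ.filter fun x => x ^ 2 = 1 := by
    intro x hx
    rw [Finset.mem_filter]
    refine ⟨Finset.mem_univ _, ?_⟩
    rw [Finset.mem_insert, Finset.mem_insert, Finset.mem_singleton] at hx
    rw [pow_two]
    rcases hx with rfl | rfl | rfl
    · exact one_mul 1
    · exact ha
    · exact hb
  have h3 := Finset.card_le_card h2
  rw [Finset.card_insert_of_notMem (by
      rw [Finset.mem_insert, Finset.mem_singleton, not_or]; exact ⟨Ne.symm ha1, Ne.symm hb1⟩),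
    Finset.card_insert_of_notMem (by rw [Finset.mem_singleton]; exact hab), Finset.card_singleton] at h3
  omega

section

variable {O : Type*} [Group O] [Finite O]

/-- an involution is conjugate into a cyclic subgroup of odd index -/
theorem exists_conj {C : Subgroup O} (hC : IsCyclic C) (hi : Odd C.index) {t a : O} (ht : t ∈ C) (ht2 : t * t = 1)
    (ht1 : t ≠ 1) (ha : a * a = 1) (ha1 : a ≠ 1) : ∃ g, a = g * t * g⁻¹ := by
  have hp : IsPGroup 2 (Subgroup.zpowers a) := by
    intro x
    obtain ⟨n, hn⟩ := x.2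
    refine ⟨1, Subtype.ext ?_⟩
    have h1 : a ^ n = (x : O) := hn
    show (x : O) ^ 2 ^ 1 = 1
    rw [pow_one, ← h1, ← zpow_natCast, ← zpow_mul, mul_comm, zpow_mul]
    have h2 : a ^ ((2 : ℕ) : ℤ) = 1 := by rw [zpow_natCast, pow_two, ha]
    rw [h2, one_zpow]
  have : Fact (Nat.Prime 2) := ⟨Nat.prime_two⟩
  have h1 := hp.card_modEq_card_fixedPoints (O ⧸ C)
  have h2 : Nonempty (MulAction.fixedPoints (Subgroup.zpowers a) (O ⧸ C)) := by
    by_contra hcon
    rw [not_nonempty_iff] at hcon
    have h3 : Nat.card (MulAction.fixedPoints (Subgroup.zpowers a) (O ⧸ C)) = 0 := Nat.card_of_isEmpty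
    rw [h3] at h1
    have h4 : 2 ∣ C.index := (Nat.modEq_zero_iff_dvd).1 h1
    obtain ⟨m, hm⟩ := hi
    omega
  obtain ⟨x, hx⟩ := h2
  obtain ⟨g, rfl⟩ := QuotientGroup.mk_surjective x
  have h3 : a * g ∈ {y : O | (y : O ⧸ C) = (g : O ⧸ C)} := hx ⟨a, Subgroup.mem_zpowers a⟩
  have h4 : g⁻¹ * (a * g) ∈ C := QuotientGroup.eq.1 (show ((g : O) : O ⧸ C) = ((a * g : O) : O ⧸ C) from h3.symm)
  have h5 : g⁻¹ * (a * g) = t := by
    have h6 := eq_of_cyclic (C := C) (a := ⟨g⁻¹ * (a * g), h4⟩) (b := ⟨t, ht⟩) (Subtype.ext (by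
        show g⁻¹ * (a * g) * (g⁻¹ * (a * g)) = 1
        calc g⁻¹ * (a * g) * (g⁻¹ * (a * g)) = g⁻¹ * (a * a) * g := by group
          _ = 1 := by rw [ha]; group)) (by
        intro h0
        apply ha1
        have h7 : g⁻¹ * (a * g) = 1 := congrArg Subtype.val h0
        calc a = g * (g⁻¹ * (a * g)) * g⁻¹ := by group
          _ = 1 := by rw [h7]; group) (Subtype.ext ht2) (by
        intro h0
        exact ht1 (congrArg Subtype.val h0))
    exact congrArg Subtype.val h6
  refine ⟨g, ?_⟩
  rw [← h5]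
  group

/-- commuting involutions are equal -/
theorem eq_of_comm {C : Subgroup O} (hC : IsCyclic C) (hi : Odd C.index) {t a : O} (ht : t ∈ C) (ht2 : t * t = 1)
    (ht1 : t ≠ 1) (ha : a * a = 1) (ha1 : a ≠ 1) (hc : a * t = t * a) : a = t := by
  have hCN : C ≤ centralizer ({t} : Set O) := by
    intro c hc
    rw [mem_centralizer_singleton_iff]
    have := hC.isMulCommutative
    exact congrArg Subtype.val (mul_comm' (⟨c, hc⟩ : C) ⟨t, ht⟩)
  have htN : t ∈ centralizer ({t} : Set O) := hCN ht
  have haN : a ∈ centralizer ({t} : Set O) := mem_centralizer_singleton_iff.2 hc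
  have hi' : Odd (C.subgroupOf (centralizer ({t} : Set O))).index := by
    have h1 := Subgroup.relIndex_mul_index hCN
    rw [← h1] at hi
    exact (Nat.odd_mul.1 hi).1
  have hC' : IsCyclic (C.subgroupOf (centralizer ({t} : Set O))) :=
    isCyclic_of_injective (Subgroup.subgroupOfEquivOfLe hCN).toMonoidHom
      (Subgroup.subgroupOfEquivOfLe hCN).injective
  obtain ⟨g, hg⟩ := exists_conj hC' hi' (t := ⟨t, htN⟩) (a := ⟨a, haN⟩) ht (Subtype.ext ht2)
    (fun h0 => ht1 (congrArg Subtype.val h0)) (Subtype.ext ha) (fun h0 => ha1 (congrArg Subtype.val h0))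
  have h1 : a = (g : O) * t * (g : O)⁻¹ := congrArg Subtype.val hg
  have h2 := mem_centralizer_singleton_iff.1 g.2
  rw [h1, h2, mul_inv_cancel_right]

/-- **The subgroup `D`.** -/
theorem exists_D {C : Subgroup O} (hC : IsCyclic C) (hi : C.index = 1 ∨ C.index = 3) {t : O} (ht : t ∈ C)
    (ht2 : t * t = 1) (ht1 : t ≠ 1) :
    ∃ D : Subgroup O, (∀ d ∈ D, d ^ 3 = 1) ∧ ∀ a : O, a * a = 1 → a ∈ D ∨ a * t ∈ D := by
  classical
  have hodd : Odd C.index := by
    rcases hi with h | h
    · rw [h]; exact odd_one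
    · rw [h]; exact ⟨1, rfl⟩
  have h3 : Nat.card (O ⧸ C) ≤ 3 := by
    show C.index ≤ 3
    omega
  by_cases hall : ∀ a : O, a * a = 1 → a ≠ 1 → a = t
  · refine ⟨⊥, fun d hd => by rw [Subgroup.mem_bot.1 hd, one_pow], fun a ha => ?_⟩
    by_cases ha1 : a = 1
    · left; rw [ha1]; exact one_mem _
    · right; rw [hall a ha ha1, ht2]; exact one_mem _
  push Not at hall
  obtain ⟨b, hb, hb1, hbt⟩ := hall
  have hcm : ∀ c ∈ C, c * t = t * c := by
    intro c hc
    have := hC.isMulCommutative
    exact congrArg Subtype.val (mul_comm' (⟨c, hc⟩ : C) ⟨t, ht⟩)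
  -- the class
  let f : O ⧸ C → O := Quotient.lift (fun g : O => g * t * g⁻¹) (by
    intro g g' hgg
    have h1 : g⁻¹ * g' ∈ C := (QuotientGroup.leftRel_apply).1 hgg
    have h2 := hcm _ h1
    show g * t * g⁻¹ = g' * t * g'⁻¹
    calc g * t * g⁻¹ = g * (t * (g⁻¹ * g')) * g'⁻¹ := by group
      _ = g * ((g⁻¹ * g') * t) * g'⁻¹ := by rw [h2]
      _ = g' * t * g'⁻¹ := by group)
  have hf : ∀ a : O, a * a = 1 → a ≠ 1 → a ∈ Set.range f := by
    intro a ha ha1
    obtain ⟨g, hg⟩ := exists_conj hC hodd ht ht2 ht1 ha ha1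
    exact ⟨(g : O ⧸ C), hg.symm⟩
  have hfour : ∀ s : Finset O, (∀ x ∈ s, x * x = 1 ∧ x ≠ 1) → s.card ≤ 3 := by
    intro s hs
    have h4 : (s : Set O) ⊆ Set.range f := fun x hx => hf x (hs x hx).1 (hs x hx).2
    have h5 := Set.ncard_le_ncard h4 (Set.toFinite _)
    rw [Set.ncard_coe_finset] at h5
    have h6 : (Set.range f).ncard ≤ Nat.card (O ⧸ C) := by
      rw [← Set.image_univ, ← Set.ncard_univ]
      exact Set.ncard_image_le (Set.toFinite _)
    omega
  have hinv : ∀ {x y : O}, x * x = 1 → y * y = 1 → y ≠ 1 → (x * y * x) * (x * y * x) = 1 ∧ x * y * x ≠ 1 := by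
    intro x y hx hy hy1
    constructor
    · calc (x * y * x) * (x * y * x) = x * y * (x * x) * y * x := by group
        _ = x * (y * y) * x := by rw [hx]; group
        _ = 1 := by rw [hy, mul_one, hx]
    · intro h0
      apply hy1
      calc y = (x * x) * y * (x * x) := by rw [hx]; group
        _ = x * (x * y * x) * x := by group
        _ = 1 := by rw [h0, mul_one, hx]
  have hcomm : ∀ {x y : O}, x * x = 1 → x * y * x = y → x * y = y * x := by
    intro x y hx h0
    calc x * y = x * y * (x * x) := by rw [hx, mul_one]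
      _ = (x * y * x) * x := by group
      _ = y * x := by rw [h0]
  have hne1 : t * b * t ≠ t := by
    intro h0
    apply hbt
    calc b = (t * t) * b * (t * t) := by rw [ht2]; group
      _ = t * (t * b * t) * t := by group
      _ = t := by rw [h0, ht2, one_mul]
  have hne2 : t * b * t ≠ b := fun h0 => hbt (eq_of_comm hC hodd ht ht2 ht1 hb hb1 (hcomm ht2 h0).symm)
  have hne3 : b * t * b ≠ b := by
    intro h0
    apply hbt
    have : t = b := by
      calc t = (b * b) * t * (b * b) := by rw [hb]; group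
        _ = b * (b * t * b) * b := by group
        _ = b := by rw [h0, hb, one_mul]
    exact this.symm
  have hne4 : b * t * b ≠ t := fun h0 => hbt (eq_of_comm hC hodd ht ht2 ht1 hb hb1 (hcomm hb h0))
  have heq : b * t * b = t * b * t := by
    by_contra hcon
    have h4 := hfour {t, b, t * b * t, b * t * b} (by
      intro x hx
      simp only [Finset.mem_insert, Finset.mem_singleton] at hx
      rcases hx with rfl | rfl | rfl | rfl
      · exact ⟨ht2, ht1⟩
      · exact ⟨hb, hb1⟩
      · exact hinv ht2 hb hb1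
      · exact hinv hb ht2 ht1)
    rw [Finset.card_insert_of_notMem (by
        simp only [Finset.mem_insert, Finset.mem_singleton, not_or]
        exact ⟨Ne.symm hbt, Ne.symm hne1, Ne.symm hne4⟩),
      Finset.card_insert_of_notMem (by
        simp only [Finset.mem_insert, Finset.mem_singleton, not_or]
        exact ⟨Ne.symm hne2, Ne.symm hne3⟩),
      Finset.card_insert_of_notMem (by
        simp only [Finset.mem_singleton]
        exact Ne.symm hcon), Finset.card_singleton] at h4
    omega
  have hcube : (b * t) ^ 3 = 1 := by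
    calc (b * t) ^ 3 = (b * t * b) * (t * b * t) := by rw [pow_succ, pow_two]; group
      _ = (t * b * t) * (t * b * t) := by rw [heq]
      _ = 1 := (hinv ht2 hb hb1).1
  refine ⟨Subgroup.zpowers (b * t), fun d hd => ?_, fun a ha => ?_⟩
  · obtain ⟨n, rfl⟩ := Subgroup.mem_zpowers_iff.1 hd
    rw [← zpow_natCast, ← zpow_mul, mul_comm, zpow_mul, zpow_natCast, hcube, one_zpow]
  · by_cases ha1 : a = 1
    · left; rw [ha1]; exact one_mem _
    right
    by_cases h1 : a = t
    · rw [h1, ht2]; exact one_mem _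
    by_cases h2 : a = b
    · rw [h2]; exact Subgroup.mem_zpowers _
    by_cases h3 : a = t * b * t
    · have h4 : a * t = (b * t)⁻¹ := by
        have hb' : b⁻¹ = b := by rw [inv_eq_iff_mul_eq_one, hb]
        have ht' : t⁻¹ = t := by rw [inv_eq_iff_mul_eq_one, ht2]
        rw [mul_inv_rev, hb', ht', h3, mul_assoc, ht2, mul_one]
      rw [h4]
      exact inv_mem (Subgroup.mem_zpowers _)
    exfalso
    have h4 := hfour {a, t, b, t * b * t} (by
      intro x hx
      simp only [Finset.mem_insert, Finset.mem_singleton] at hx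
      rcases hx with rfl | rfl | rfl | rfl
      · exact ⟨ha, ha1⟩
      · exact ⟨ht2, ht1⟩
      · exact ⟨hb, hb1⟩
      · exact hinv ht2 hb hb1)
    rw [Finset.card_insert_of_notMem (by
        simp only [Finset.mem_insert, Finset.mem_singleton, not_or]
        exact ⟨h1, h2, h3⟩),
      Finset.card_insert_of_notMem (by
        simp only [Finset.mem_insert, Finset.mem_singleton, not_or]
        exact ⟨Ne.symm hbt, Ne.symm hne1⟩),
      Finset.card_insert_of_notMem (by
        simp only [Finset.mem_singleton]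
        exact Ne.symm hne2), Finset.card_singleton] at h4
    omega

end

end Cfsg.Agent.H897.SK6
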